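import Cfsg.Agent.TH.Ex.Ab.MaxDefs
import Cfsg.Agent.SB.Exc.Max.Shape
import Cfsg.Agent.DL.Asm.Sys

/-!
# S3541, `BoxOrd` (helper58)

* `orb1`, `orb2` : the Weyl group on a component of type `A₁`, `A₂`; `comp` : the components in a quasi-split frame;
* `ord_qs`, `boxOrd`.
-/

set_option autoImplicit false
set_option linter.unusedSectionVars false

namespace Cfsg.Agent.TH.Ab.MxO

open CoxeterSystem Cfsg.Agent.ChevalleyStructure.CoxeterGeom Cfsg.Agent.Tits.Roots Cfsg.Agent.Nodes.Reps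
  Cfsg.Agent.Nodes.BNOf Cfsg.Agent.Nodes.Coroot Cfsg.Agent.DL Cfsg.Agent.BpExc.Zc Cfsg.Agent.SB.Exc.Max

section lat

variable {I W : Type} [Fintype I] [DecidableEq I] [Group W] {M : CoxeterMatrix I} (cs : CoxeterSystem M W)
  {A : I → I → ℤ} (h : IsCartan M A)

theorem pair_sr (k i : I) : pairing A k (sr i) = A k i := (pairing_single _ _ _ _).trans (mul_one _)

theorem orb1 {i : I} (h0 : ∀ k, k ≠ i → A k i = 0) (w : W) : rep cs h w (sr i) = sr i ∨ rep cs h w (sr i) = -sr i := by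
  induction w using cs.simple_induction_left with
  | one => simp
  | mul_simple_left w k ih =>
    have h1 : rep cs h (cs.simple k) (sr i) = sr i ∨ rep cs h (cs.simple k) (sr i) = -sr i := by
      by_cases hk : k = i
      · exact Or.inr (hk ▸ rep_simple_sr cs h k)
      · exact Or.inl (by rw [rep_simple_eq, pair_sr, h0 k hk, zero_smul, sub_zero])
    rw [map_mul, Module.End.mul_apply]
    rcases ih with e | e <;> rw [e]
    · exact h1
    · rw [map_neg]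
      exact h1.symm.imp (fun e => by rw [e, neg_neg]) (congrArg _)

/-- the Weyl group of type `A₂` -/
def S6 : Finset (ℤ × ℤ × ℤ × ℤ) :=
  {(1, 0, 0, 1), (0, 1, -1, -1), (-1, -1, 1, 0), (-1, 0, 1, 1), (1, 1, 0, -1), (0, -1, -1, 0)}

theorem S6_cl : ∀ c ∈ S6, (c.2.1 - c.1, c.2.1, c.2.2.2 - c.2.2.1, c.2.2.2) ∈ S6 ∧
    (c.1, c.1 - c.2.1, c.2.2.1, c.2.2.1 - c.2.2.2) ∈ S6 ∧ (c.2.1 - 2) * (c.2.2.1 - 2) - c.2.2.2 * c.1 ∣ 9 := by
  decide

theorem orb2 {i j : I} (h1 : A j i = -1) (h2 : A i j = -1) (h0 : ∀ k, k ≠ i → k ≠ j → A k i = 0 ∧ A k j = 0) (w : W) :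
    ∃ c ∈ S6, rep cs h w (sr i) = c.1 • sr i + c.2.1 • sr j ∧ rep cs h w (sr j) = c.2.2.1 • sr i + c.2.2.2 • sr j := by
  induction w using cs.simple_induction_left with
  | one => exact ⟨(1, 0, 0, 1), by decide, by simp⟩
  | mul_simple_left w k ih =>
    obtain ⟨c, hc, e1, e2⟩ := ih
    simp only [map_mul, Module.End.mul_apply, e1, e2, rep_simple_eq, pairing_add, pairing_smul, pair_sr]
    by_cases hi : k = i
    · subst hi
      exact ⟨_, (S6_cl c hc).1, by rw [h.diag, h2]; constructor <;> module⟩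
    by_cases hj : k = j
    · subst hj
      exact ⟨_, (S6_cl c hc).2.1, by rw [h.diag, h1]; constructor <;> module⟩
    · exact ⟨c, hc, by simp [h0 k hi hj]⟩

include h in
theorem nonpos {i j : I} (hij : i ≠ j) : A i j ≤ 0 ∧ (A i j < 0 → A j i < 0) := by
  have := h.rel i j hij
  omega

end lat

attribute [local instance] DL.Base.fintypeSmp DL.Base.decSmp

variable {p : ℕ} [Fact p.Prime] {k : Type} [Field k] [CharP k p] {Y : Type} [Group Y] {N : Type} [Fintype N]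
  [DecidableEq N] {ρ : Y →* GL N k} {F : MulAut Y} {G : Subgroup Y} [IsAlgClosed k] {D : Datum p ρ F G}

theorem comp (hq : D.QS) (hex : ∀ a, D.Rt a → D.ex a = 1) (cz : CommZ D.cs D.h D.X) (hdc : DC D.cs D.h D.X)
    (hE : HE p F (D.S {a | D.Rt a})) (i : D.I) : (D.g (sr i) = sr i ∧ ∀ l, l ≠ i → D.A l i = 0) ∨
      (p = 2 ∧ ∃ j, D.g (sr i) = sr j ∧ D.g (sr j) = sr i ∧ D.A j i = -1 ∧ D.A i j = -1 ∧
        ∀ l, l ≠ i → l ≠ j → D.A l i = 0 ∧ D.A l j = 0) := by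
  have := D.fW
  have sh : ∀ r s, D.Rt r → D.Rt s → s ≠ r → 0 < cpr D.cs D.h s r → cpr D.cs D.h s r = 1 ∧ p = 2 := fun r s hr hs h1 h2 =>
    let h := (shape0 one_pos hex cz hE (Q := fun _ => True) (fun _ _ _ => trivial) (fun _ _ _ _ => trivial)
      (fun θ hθ _ c hc h0 => hdc θ c hθ hc h0) hr trivial).2 s ⟨hs, h1, h2⟩
    ⟨h.1, h.2.2.1⟩
  have sh' : ∀ i j, j ≠ i → D.A i j < 0 → D.A i j = -1 ∧ p = 2 := fun i j h1 h2 => by
    have h3 := sh (sr i) (-sr j) (isRoot_sr _ _ i) (isRoot_sr _ _ j).neg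
      (fun e => by simpa [sr_self, sr_ne h1] using congrFun e j) (by rw [cpr_neg', cpr_sr, pair_sr]; omega)
    rw [cpr_neg', cpr_sr, pair_sr] at h3
    exact ⟨by omega, h3.2⟩
  obtain ⟨θ, h1, h2, h3, rfl | ⟨h4, h5⟩⟩ := cov0 hq one_pos hex cz hE hdc (isRoot_sr D.cs D.h i) (sr_nonneg i)
  · exact Or.inl ⟨h3, fun l hl => le_antisymm (nonpos D.h hl).1 (pair_sr (A := D.A) l i ▸ h2 l)⟩
  rw [hq.g_sr] at h4 h5 ⊢
  generalize D.σ i = j at h4 h5
  have h6 : j ≠ i := fun e => ne_two_smul h1 (sr i) (by rw [h4, e, two_smul])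
  have h7 : D.A i j < 0 := (nonpos D.h h6.symm).1.lt_of_ne fun e => by
    have h8 : cpr D.cs D.h θ (sr i) = 2 := by rw [cpr_sr, h4, pairing_add, pair_sr, pair_sr, e, D.h.diag, add_zero]
    have := (sh (sr i) θ (isRoot_sr _ _ i) h1 (fun e => sr_ne_zero j (by simpa [h4] using e)) (by omega)).1
    omega
  refine Or.inr ⟨(sh' i j h6 h7).2, j, rfl, h5, (sh' j i h6.symm ((nonpos D.h h6.symm).2 h7)).1, (sh' i j h6 h7).1,
    fun l hi hj => ?_⟩
  have h8 := h2 l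
  rw [h4, pairing_add, pair_sr, pair_sr] at h8
  have := (nonpos D.h hi).1
  have := (nonpos D.h hj).1
  omega

theorem comm_of {z : Y} (hz : z ∈ D.T) (h : ∀ a, D.χ a z = 1) {g : Y} (hg : g ∈ G) : g⁻¹ * z * g = z := by
  have h2 : G ≤ Subgroup.centralizer {z} := D.G_eq.ge.trans (sup_le
    (fun t ht => Subgroup.mem_centralizer_singleton_iff.2 (D.T_comm ht hz)) (RGD.Sup_le fun a ha y hy => by
      obtain ⟨u, rfl⟩ := (D.mem_X a ha y).1 hy
      have := D.tor' ha hz u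
      rw [h, one_mul] at this
      exact Subgroup.mem_centralizer_singleton_iff.2 (mul_inv_eq_iff_eq_mul.1 this).symm))
  rw [mul_assoc, ← Subgroup.mem_centralizer_singleton_iff.1 (h2 hg), inv_mul_cancel_left]

theorem down {x y : Y} (hx : x ∈ G) (hF : x⁻¹ * F x ∈ D.NN) (hy : y ∈ (D.conj hx hF).T)
    (h : ∀ a, (D.conj hx hF).χ a y = 1) : y ∈ D.T ∧ ∀ a, D.χ a y = 1 := by
  have h1 := comm_of hy h hx
  have h2 : y ∈ D.T := h1 ▸ mem_cj.1 hy
  refine ⟨h2, fun a => ?_⟩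
  rw [← D.conj_χ hx hF a h2, ← h a]
  conv_lhs => rw [← h1]
  congr 1
  group

theorem ord_qs (hq : D.QS) (hex : ∀ a, D.Rt a → D.ex a = 1) (cz : CommZ D.cs D.h D.X) (hdc : DC D.cs D.h D.X)
    (hE : HE p F (D.S {a | D.Rt a})) {y : Y} (hy : y ∈ G) (hF : F y = y) {s : ℕ} (hs : s.Prime) (h1 : s ≠ p)
    (h2 : ¬ s ∣ p ^ 2 - 1) (h3 : y ^ s = 1) : y ∈ D.T ∧ ∀ a, D.χ a y = 1 := by
  have hp : p.Prime := Fact.out
  obtain ⟨_, ⟨x, hx, rfl, h4⟩, h5⟩ := (Asm.sys' D).toral (s := y) ⟨hy, hF⟩ fun h =>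
    h1 ((Nat.prime_dvd_prime_iff_eq hp hs).1 (h.trans (orderOf_dvd_of_pow_eq_one h3))).symm
  have h6 := (D.stable_iff hx).1 h4
  refine down hx h6 h5 fun a => ?_
  let L := (D.conj hx h6).Lam {y}
  have l1 : ∀ a, D.Rt a → D.act (D.pr (x⁻¹ * F x)) (D.g a) - (p : ℤ) • a ∈ L := fun a ha z hz => by
    have h7 := (D.conj hx h6).χ_F ha h5
    rw [hF, show (D.conj hx h6).ex a = 1 from hex a ha, pow_one] at h7
    rw [show z = y from hz, sub_eq_add_neg, Datum.χ_add, Datum.χ_neg, Datum.χ_zsmul, zpow_natCast, ← h7]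
    exact mul_inv_cancel₀ (Datum.χ_ne_zero _ _ _)
  have l2 : ∀ a, (s : ℤ) • a ∈ L := fun a z hz => by
    have h7 : ∀ n : ℕ, (D.conj hx h6).χ a (y ^ n) = (D.conj hx h6).χ a y ^ n := fun n => by
      induction n with
      | zero => simp [Datum.χ_one]
      | succ n ih => rw [pow_succ, Datum.χ_mul _ _ (pow_mem h5 n) h5, ih, pow_succ]
    rw [show z = y from hz, Datum.χ_zsmul, zpow_natCast, ← h7, h3, Datum.χ_one]
  have l3 : ∀ i, (((p : ℤ) ^ 2 - 1) ^ 2) • sr i ∈ L := fun i => by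
    rcases comp hq hex cz hdc hE i with ⟨e1, e2⟩ | ⟨e0, j, e1, e2, e3, e4, e5⟩
    · have h7 := l1 _ (isRoot_sr _ _ i)
      rw [e1] at h7
      rcases orb1 D.cs D.h e2 (D.pr (x⁻¹ * F x)) with e | e <;> rw [show D.act _ (sr i) = _ from e] at h7
      · convert L.zsmul_mem h7 (-((p : ℤ) ^ 2 - 1) * (p + 1)) using 1
        module
      · convert L.zsmul_mem h7 (-((p : ℤ) ^ 2 - 1) * (p - 1)) using 1
        module
    · obtain ⟨c, hc, c1, c2⟩ := orb2 D.cs D.h e3 e4 e5 (D.pr (x⁻¹ * F x))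
      have h7 := l1 _ (isRoot_sr _ _ i)
      have h8 := l1 _ (isRoot_sr _ _ j)
      rw [e1, show D.act _ (sr j) = _ from c2] at h7
      rw [e2, show D.act _ (sr i) = _ from c1] at h8
      obtain ⟨m, hm⟩ := (S6_cl c hc).2.2
      have e6 : (p : ℤ) = 2 := by exact_mod_cast e0
      rw [e6] at h7 h8 ⊢
      convert L.zsmul_mem (sub_mem (L.zsmul_mem h7 (c.2.1 - 2)) (L.zsmul_mem h8 c.2.2.2)) m using 1
      rw [show ((2 : ℤ) ^ 2 - 1) ^ 2 = 9 by norm_num, hm]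
      module
  obtain ⟨u, v, huv⟩ : IsCoprime (s : ℤ) (((p : ℤ) ^ 2 - 1) ^ 2) := by
    have h7 := Nat.isCoprime_iff_coprime.2 ((Nat.Prime.coprime_iff_not_dvd hs).2 h2)
    rw [Nat.cast_sub (Nat.one_le_pow _ _ hp.pos), Nat.cast_pow, Nat.cast_one] at h7
    exact h7.pow_right
  have l4 : a ∈ L := D.eq_sum_sr a ▸ sum_mem fun i _ => L.zsmul_mem (by
    convert add_mem (L.zsmul_mem (l2 (sr i)) u) (L.zsmul_mem (l3 i) v) using 1
    rw [smul_smul, smul_smul, ← add_smul, huv, one_smul]) _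
  exact l4 y rfl

end Cfsg.Agent.TH.Ab.MxO

namespace Cfsg.Agent.TH.Ab

open Cfsg.Agent.SB.Exc.Max Cfsg.Agent.Nodes.Reps

/-- [ORD] -/
theorem boxOrd : BoxOrd := by
  intro p _ k _ _ _ Y _ N _ _ ρ σ G D hex cz hdc hE y hy hF s hs h1 h2 h3
  obtain ⟨z, hz, hzF, hq⟩ := D.exists_qs
  obtain ⟨h4, h5⟩ := MxO.ord_qs hq hex (commZ_conj cz hz hzF)
    (fun a b ha hb h0 u hu v hv => comm_cj (hdc a b ha hb h0 _ (mem_cj.1 hu) _ (mem_cj.1 hv)))
    (by rw [conj_S_roots hz hzF]; exact hE) hy hF hs h1 h2 h3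
  exact (MxO.down hz hzF h4 h5).imp_right fun h a _ => h a

end Cfsg.Agent.TH.Ab
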