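import Cfsg.Agent.TH.Ex.Ab.MaxDefs
import Cfsg.Agent.SB.Exc.Max.Main
import Cfsg.Agent.SB.Exc.Max.Perp
import Cfsg.Agent.TH.ExT.Nu

/-!
# S3541, `BoxMax` : the rational points of the centraliser of `Z` (helper10)

`GW` (`σ` acts on the roots as `± w`), `gg` (`g² = 1`), `ord` (prime divisors), `relIndex_dvd` (the index in the
normaliser), `not_pow_dvd`, `syl_le` (the `p`-part, the Sylow `p`-subgroups).
-/

set_option autoImplicit false
set_option linter.unusedSectionVars false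

namespace Cfsg.Agent.TH.Ab.Mx

open CoxeterSystem Cfsg.Agent.ChevalleyStructure.CoxeterGeom Cfsg.Agent.Tits.Roots Cfsg.Agent.Nodes.Reps
  Cfsg.Agent.Nodes.BNOf Cfsg.Agent.Nodes.Bruhat Cfsg.Agent.LangThm Cfsg.Agent.Nodes.SubComb
  Cfsg.Agent.Nodes.Coroot Cfsg.Agent.Nodes.Slope Cfsg.Agent.Nodes.NormalForm Cfsg.Agent.DL.Base Cfsg.Agent.DL
  Cfsg.Agent.BpExc.Zc Cfsg.Agent.SB.Exc.Max Cfsg.Agent.SB.Exc.Max.PerpL Cfsg.Agent.SB.Exc

attribute [local instance] fintypeSmp decSmp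

variable {p : ℕ} [Fact p.Prime] {k : Type} [Field k] [CharP k p] {Y : Type} [Group Y] {N : Type} [Fintype N]
  [DecidableEq N] {ρ : Y →* GL N k} {σ : MulAut Y} {G : Subgroup Y} [IsAlgClosed k] {D : Datum p ρ σ G}

variable (D) in
/-- `σ` acts on the roots as `± w` -/
def GW : Prop := ∃ w : D.W, (∀ a, D.g a = D.act w a) ∨ ∀ a, D.g a = -D.act w a

theorem GW.conj (H : GW D) {y : Y} (hy : y ∈ G) (hF : y⁻¹ * σ y ∈ D.NN) : GW (D.conj hy hF) := by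
  obtain ⟨w, h | h⟩ := H
  · exact ⟨D.pr (y⁻¹ * σ y) * w, Or.inl fun a => (congrArg (D.act _) (h a)).trans (act_mul _ _ _ _).symm⟩
  · refine ⟨D.pr (y⁻¹ * σ y) * w, Or.inr fun a => (congrArg (D.act _) (h a)).trans ?_⟩
    rw [act_neg, ← act_mul]

theorem GW.sq (H : GW D) : ∃ w : D.W, ∀ a, D.g (D.g a) = D.act w a := by
  obtain ⟨w, h | h⟩ := H
  · exact ⟨w * w, fun a => by rw [h, h, act_mul]⟩
  · exact ⟨w * w, fun a => by rw [h, h, act_neg, neg_neg, act_mul]⟩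

theorem eq_one_of_fix {P : Set (D.I → ℤ)} (hP : ∀ a ∈ P, D.Rt a) {w : D.W} (h1 : ∀ a ∈ P, D.act w a = a)
    (h2 : ∀ a ∈ Perp D P, D.act w a = a) : w = 1 := by
  have := D.fW
  refine eq_one_of_sum D (pow_orderOf_eq_one w) fun a ha h0 => ?_
  have key : ∀ c, D.Rt c → D.act w c = c → cpr D.cs D.h a c = 0 := fun c hc e => by
    have h4 : ∀ i, cpr D.cs D.h (D.act (w ^ i) a) c = cpr D.cs D.h a c := fun i => by
      rw [← cpr_act (w ^ i) a hc, act_pow_eq e]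
    have h7 := congrArg (el D.cs D.h c) h0
    rw [map_sum, map_zero, Finset.sum_congr rfl fun i _ => (el_apply _ _ _ _).trans (h4 i), Finset.sum_const,
      Finset.card_range, nsmul_eq_mul] at h7
    exact (mul_eq_zero.1 h7).resolve_left (Nat.cast_ne_zero.2 (orderOf_pos w).ne')
  have h3 := key a ha (h2 a ⟨ha, fun c hc => key c (hP c hc) (h1 c hc)⟩)
  rw [cpr_self _ _ ha] at h3
  omega

section

variable {Z : Set Y} (hZ : Z ⊆ D.T) (hF : ∀ a ∈ D.Sz Z, D.g a ∈ D.Sz Z)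
include hZ hF

theorem act_pm (hI : Iso D.cs D.h (D.Sz Z)) {m : Y} (hm : m ∈ D.NN) (hc : m ∈ D.cen Z) {c : D.I → ℤ} (h : c ∈ D.Sz Z) :
    D.act (D.pr m) c = c ∨ D.act (D.pr m) c = -c := by
  have h1 : m ∈ (D.sub hZ hF rfl).NN := (D.sub_NN hZ hF rfl).ge ⟨hm, hc⟩
  have := (D.sub hZ hF rfl).fW
  obtain ⟨c, hc', rfl⟩ := exists_io hZ hF rfl h
  have h2 := (iso_sub_iff hZ hF rfl).2 hI
  rw [Datum.Rp.pr_eq (D.rp_of_sub hZ hF rfl ((D.sub hZ hF rfl).rp_pr h1)), D.act_subW hZ hF rfl]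
  rcases h2.orth (fun _ h => IsRoot.neg h) hc' (hc'.act ((D.sub hZ hF rfl).pr m)) with e | e | e
  · exact Or.inl (congrArg _ e)
  · exact Or.inr ((congrArg _ e).trans (map_neg _ _))
  · exact absurd e (h2.shp.rep_ne _ hc')

omit hZ hF in
theorem cj_S {y : Y} (hy : y ∈ D.cen Z) : Nodes.Reps.cj y (D.S (D.Sz Z)) = D.S (D.Sz Z) := by
  have key : ∀ y ∈ D.cen Z, ∀ u ∈ D.S (D.Sz Z), y * u * y⁻¹ ∈ D.S (D.Sz Z) := fun y hy u hu => by
    obtain ⟨s, hs, t, ht, rfl⟩ := (D.mem_TS D.Sz_root).1 hy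
    have := mul_mem (mul_mem hs (D.conj_mem_S_of_T D.Sz_root ht hu)) (inv_mem hs)
    convert this using 1
    group
  ext u
  rw [Nodes.Reps.mem_cj]
  refine ⟨fun h => ?_, fun h => by simpa using key _ (inv_mem hy) u h⟩
  have := key y hy _ h
  convert this using 1
  group

variable {e : ℕ} (he : 0 < e) (hex : ∀ a, D.Rt a → D.ex a = e) (cz : CommZ D.cs D.h D.X) (dc : DC D.cs D.h D.X)
  (hE : HE p σ (D.S (D.Sz Z)))
include he hex cz dc hE

theorem gg_qs (hq : ∀ a ∈ D.Sz Z, 0 ≤ a → 0 ≤ D.g a) {a : D.I → ℤ} (ha : a ∈ D.Sz Z) : D.g (D.g a) = a := by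
  have key : ∀ a ∈ Ps D Z, D.g (D.g a) = a := fun a ha => by
    obtain ⟨θ, -, -, h1, rfl | ⟨-, h2⟩⟩ := cov hZ hF hq he hex cz hE dc ha
    · rw [h1, h1]
    · exact h2
  rcases pos_or_neg_Ps ha with h | h
  · exact key a h
  · have := key _ h
    rwa [D.g_neg ha.1, D.g_neg (D.g_root a ha.1), neg_inj] at this

theorem g_qs (hI : Iso D.cs D.h (D.Sz Z)) (hq : ∀ a ∈ D.Sz Z, 0 ≤ a → 0 ≤ D.g a) {a : D.I → ℤ} (ha : a ∈ D.Sz Z) :
    D.g a = a := by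
  have key : ∀ a ∈ Ps D Z, D.g a = a := fun a ha => by
    obtain ⟨θ, hθ, -, h1, rfl | ⟨h2, -⟩⟩ := cov hZ hF hq he hex cz hE dc ha
    · exact h1
    exfalso
    have h3 := cpr_self D.cs D.h ha.1.1
    have h4 : cpr D.cs D.h θ a = 2 + cpr D.cs D.h (D.g a) a := by rw [h2, cpr_add', h3]
    rcases hI.orth (fun _ => D.Sz_neg) ha.2 (hF a ha.2) with e | e | e
    · exact ne_two_smul hθ.1.1 a (by rw [h2, e, two_smul])
    · exact hθ.1.1.ne_zero (by rw [h2, e, add_neg_cancel])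
    · rcases hI.orth (fun _ => D.Sz_neg) ha.2 hθ.2 with e' | e' | e'
      · exact (D.g_root a ha.1.1).ne_zero (left_eq_add.1 (e'.symm.trans h2))
      · rw [e', cpr_neg'] at h4
        omega
      · omega
  rcases pos_or_neg_Ps ha with h | h
  · exact key a h
  · have := key _ h
    rwa [D.g_neg ha.1, neg_inj] at this

theorem gg_iso (hI : Iso D.cs D.h (D.Sz Z)) {a : D.I → ℤ} (ha : a ∈ D.Sz Z) : D.g (D.g a) = a := by
  obtain ⟨y, hy, hy', h1, h2, h3⟩ := exists_reframe D hZ hF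
  have h4 : ∀ z ∈ Z, y * z * y⁻¹ = z := fun z hz => by
    rw [← D.cen_le_centralizer hZ h1 z hz, mul_inv_cancel_right]
  have h5 : (D.conj hy hy').Sz Z = D.Sz Z := Set.ext fun b => and_congr_right fun _ => forall₂_congr fun z hz => by
    rw [← D.conj_χ hy hy' b (hZ hz), h4 z hz]
  have h6 : Z ⊆ (D.conj hy hy').T := fun z hz => by
    rw [← h4 z hz]
    exact Nodes.Reps.conj_mem_cj.2 (hZ hz)
  have h7 : (D.conj hy hy').g a = a := g_qs (D := D.conj hy hy') h6 (fun b hb => by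
      rw [h5] at hb ⊢
      exact D.act_mem_Sz hZ (D.rp_pr hy') (D.cen_le_centralizer hZ h2) (hF b hb)) he hex (commZ_conj cz hy hy')
    (fun a b ha hb h0 u hu v hv => comm_cj (dc a b ha hb h0 _ (Nodes.Reps.mem_cj.1 hu) _ (Nodes.Reps.mem_cj.1 hv)))
    (by rw [h5, D.conj_S, cj_S h1]; exact hE) (by rw [h5]; exact hI) (by rw [h5]; exact h3) (by rw [h5]; exact ha)
  rw [D.conj_g] at h7
  rcases act_pm hZ hF hI hy' h2 (hF a ha) with e | e
  · rw [e] at h7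
    rw [h7, h7]
  · rw [e, neg_eq_iff_eq_neg] at h7
    rw [h7, D.g_neg ha.1, h7, neg_neg]

/-- `g² = 1` -/
theorem gg (hq : ∀ a ∈ D.Sz Z, 0 ≤ a → 0 ≤ D.g a) (hE' : HE p σ (D.S (Perp D (D.Sz Z))))
    (hI : Iso D.cs D.h (Perp D (D.Sz Z))) (hW : GW D) (a : D.I → ℤ) : D.g (D.g a) = a := by
  obtain ⟨w, hw⟩ := hW.sq
  have e1 : D.Sz (Zc D (D.Sz Z)) = Perp D (D.Sz Z) := sz_zc D.Sz_root
  rw [hw, eq_one_of_fix D.Sz_root (w := w) (fun b hb => by rw [← hw, gg_qs hZ hF he hex cz dc hE hq hb])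
    (fun b hb => by
      rw [← hw]
      exact gg_iso zc_le (by rw [e1]; exact perp_g D.Sz_root hF) he hex cz dc (by rw [e1]; exact hE')
        (by rw [e1]; exact hI) (by rw [e1]; exact hb)), act_one]

end

theorem χ_pow (a : D.I → ℤ) {t : Y} (ht : t ∈ D.T) (n : ℕ) : D.χ a (t ^ n) = D.χ a t ^ n := by
  induction n with
  | zero => rw [pow_zero, pow_zero, D.χ_one]
  | succ n ih => rw [pow_succ, pow_succ, D.χ_mul a (pow_mem ht n) ht, ih]

/-- the prime divisors of the order of the centraliser -/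
theorem ord (hO : BoxOrd) {Z : Set Y} (hZ : Z ⊆ D.T) (hF : ∀ a ∈ D.Sz Z, D.g a ∈ D.Sz Z) (hex : ∀ a, D.Rt a → D.ex a = 1)
    (cz : CommZ D.cs D.h D.X) (dc : DC D.cs D.h D.X) (hE : HE p σ (D.S (D.Sz Z))) (hg : ∀ a, D.g (D.g a) = a) {y : Y}
    (hy : y ∈ D.cen Z) (hσ : σ y = y) {s : ℕ} (hs : s.Prime) (hsp : s ≠ p) (hd : ¬ s ∣ p ^ 2 - 1) (h1 : y ^ s = 1) :
    ∀ x ∈ G, y * x = x * y := by
  have hT : y ∈ D.T := (hO p k Y N ρ σ _ (D.sub hZ hF rfl) (fun a ha => hex _ (io_mem hZ hF rfl ha).1)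
    (commZ_sub hZ hF rfl cz) (dc_sub hZ hF rfl dc) (by rw [sub_S_roots]; exact hE) y hy hσ s hs hsp hd h1).1
  have l4 : {c | D.Rt c} ⊆ D.Sz {y} := fun c hc => ⟨hc, fun z hz => by
    rw [hz]
    have h2 : ∀ a, D.Rt a → D.χ (D.g a) y = D.χ a y ^ p := fun a ha => by
      have := D.χ_F ha hT
      rwa [hσ, hex a ha, pow_one] at this
    have h3 := h2 _ (D.g_root c hc)
    rw [hg, h2 c hc, ← pow_mul, ← pow_two] at h3
    have h4 : D.χ c y ^ (p ^ 2 - 1) = 1 := by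
      have h5 : p ^ 2 = p ^ 2 - 1 + 1 := (Nat.sub_add_cancel (Nat.one_le_pow _ _ (Fact.out : p.Prime).pos)).symm
      rw [h5, pow_succ] at h3
      exact mul_right_cancel₀ (D.χ_ne_zero c y) (by rw [← h3, one_mul])
    have h6 : D.χ c y ^ s = 1 := by rw [← χ_pow c hT, h1, D.χ_one]
    exact (pow_eq_one_iff_of_coprime (hs.coprime_iff_not_dvd.2 hd)).1 ⟨h6, h4⟩⟩
  exact fun x hx => D.cen_le_centralizer (Z := {y}) (Set.singleton_subset_iff.2 hT)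
    ((D.G_eq.ge.trans (sup_le_sup_left (RGD.Sup_mono l4) _)) hx) y rfl

theorem conj_cen {Z : Subgroup Y} (hZ : (Z : Set Y) ⊆ D.T) {m : Y} (hm : m ∈ D.NN) (h : ∀ z ∈ Z, m⁻¹ * z * m ∈ Z) {c : Y}
    (hc : c ∈ D.cen Z) : m * c * m⁻¹ ∈ D.cen Z := by
  have h1 : D.cen Z ≤ (D.cen Z).comap (MulAut.conj m).toMonoidHom :=
    sup_le (fun t ht => D.T_le_cen _ (D.conj_mem_T hm ht)) fun u hu =>
      D.S_le_cen _ (D.conj_mem_S (S' := D.Sz Z) (D.rp_pr hm) D.Sz_root (fun a ha => ⟨ha.1.act _, fun z hz => by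
        rw [← ha.2 _ (h z hz), ← D.χ_rp (D.rp_pr hm) a (hZ (h z hz))]
        congr 1
        group⟩) hu)
  exact h1 hc

/-- the index of the centraliser in a subgroup normalising `Z` divides `|W|` -/
theorem relIndex_dvd {Z R : Subgroup Y} (hZ : (Z : Set Y) ⊆ D.T) (hR : R ≤ G) (h : ∀ r ∈ R, ∀ z ∈ Z, r * z * r⁻¹ ∈ Z) :
    (D.cen Z).relIndex R ∣ Nat.card D.W := by
  let L := G ⊓ Subgroup.normalizer (Z : Set Y)
  have h1 : R ≤ L := le_inf hR fun r hr => Subgroup.mem_normalizer_iff.2 fun z =>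
    ⟨h r hr z, fun hz => by simpa [mul_assoc] using h _ (inv_mem hr) _ hz⟩
  have h2 : ∀ y ∈ L, ∃ c ∈ D.cen Z, ∃ m ∈ D.NN ⊓ L, y = c * m := fun y hy => by
    have hn := Subgroup.mem_normalizer_iff.1 hy.2
    obtain ⟨c, hc, m, hm, h3, h4⟩ := D.exists_conj_form (s := fun z : Z => z) (t := fun z : Z => y * z * y⁻¹)
      (fun z => hZ z.2) (fun z => hZ ((hn z).1 z.2)) hy.1 (fun z => by rw [inv_mul_cancel_right])
    have h5 : c ∈ D.cen Z := D.S_le_cen _ (RGD.Sup_mono (S' := D.Sz Z) (fun a ha => ⟨ha.1, fun z hz => ha.2 z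
      ⟨⟨y⁻¹ * z * y, (hn _).2 (by simpa [mul_assoc] using hz)⟩, by group⟩⟩) hc)
    refine ⟨c, h5, m, ⟨hm, ?_⟩, h4⟩
    rw [show m = c⁻¹ * y by rw [h4, inv_mul_cancel_left]]
    exact L.mul_mem (L.inv_mem ⟨D.cen_le_G _ h5, Subgroup.centralizer_le_normalizer _
      (D.cen_le_centralizer hZ h5)⟩) hy
  have h3 : ((D.cen Z).subgroupOf L).Normal := ⟨fun c hc y => by
    obtain ⟨c', hc', m, hm, e⟩ := h2 y y.2
    have h4 := mul_mem (mul_mem hc' (conj_cen hZ hm.1 (fun z hz => by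
      simpa using (Subgroup.mem_normalizer_iff.1 (inv_mem hm.2.2) z).1 hz) (c := c) hc)) (inv_mem hc')
    show (y : Y) * c * (y : Y)⁻¹ ∈ D.cen Z
    convert h4 using 1
    rw [e]
    group⟩
  let φ : ↥(D.NN ⊓ L) →* L ⧸ (D.cen Z).subgroupOf L := (QuotientGroup.mk' _).comp (Subgroup.inclusion inf_le_right)
  let ψ : ↥(D.NN ⊓ L) →* D.W := MonoidHom.mk' (fun m => D.pr m) fun a b => D.pr_mul a.2.1 b.2.1
  have h4 : φ.range = ⊤ := MonoidHom.range_eq_top.2 fun q => by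
    obtain ⟨y, rfl⟩ := QuotientGroup.mk_surjective q
    obtain ⟨c, hc, m, hm, e⟩ := h2 _ (inv_mem y.2)
    refine ⟨⟨m, hm⟩⁻¹, (QuotientGroup.eq.2 ?_).symm⟩
    show (y : Y)⁻¹ * m⁻¹ ∈ D.cen Z
    rwa [e, mul_inv_cancel_right]
  have h5 : ψ.ker ≤ φ.ker := fun m hm => (QuotientGroup.eq_one_iff _).2 (D.T_le_cen _ ((D.pr_eq_one_iff m.2.1).1 hm))
  have h6 := Subgroup.index_dvd_of_le h5
  rw [Subgroup.index_ker, Subgroup.index_ker, h4, Subgroup.card_top] at h6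
  rw [← Subgroup.relIndex_subgroupOf h1]
  exact ((Subgroup.relIndex_dvd_index_of_normal _ _).trans h6).trans (Subgroup.card_subgroup_dvd_card _)

section Card

variable {A : Type} [Group A] {n : ℕ} (h : Card.Fq p ρ σ n) {Z : Set Y} (hZ : Z ⊆ D.T)
  (hF : ∀ a ∈ D.Sz Z, D.g a ∈ D.Sz Z) (f : A →* GF σ (D.cen Z)) (hf : Function.Injective f)
include h hZ hF hf

theorem not_pow_dvd {j : ℕ} (hj : n * (Ps D Z).ncard < j) : ¬ p ^ j ∣ Nat.card A := fun h1 => by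
  have := Asm.finite_GF (D.sub hZ hF rfl)
  have h2 := h.pc_le (D.sub hZ hF rfl)
  rw [← Set.ncard_image_of_injective _ (D.io_injective Z), D.io_pos, Uni.pc, ← pow_mul,
    Nat.pow_le_pow_iff_right (Fact.out : p.Prime).one_lt] at h2
  have h3 := ((Fact.out : p.Prime).pow_dvd_iff_le_factorization Nat.card_pos.ne').1
    (h1.trans (Subgroup.card_dvd_of_injective f hf))
  exact absurd (h3.trans h2) (not_le.2 hj)

theorem syl_le : Nat.card (Sylow p A) ≤ (p ^ n + 1) ^ (Ps D Z).ncard := by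
  have := Asm.finite_GF (D.sub hZ hF rfl)
  choose Q hQ using fun P : Sylow p A => P.exists_comap_eq_of_injective hf
  refine (Nat.card_le_card_of_injective Q fun P P' e => Sylow.ext ?_).trans (ExT.nu_cen h D hZ hF)
  rw [← hQ P, ← hQ P', e]

end Card

end Cfsg.Agent.TH.Ab.Mx
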