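import Cfsg.Agent.TH.Ex.Ab.MaxDefs
import Cfsg.Agent.SB.Exc.Max.Sub
import Cfsg.Agent.SB.Exc.Frm.MC

/-!
# S3541, `BoxMax` : the boxes `BoxPos` and `BoxFX` (helper89)
-/

set_option autoImplicit false
set_option linter.unusedSectionVars false

namespace Cfsg.Agent.TH.Ab

open CoxeterSystem Cfsg Cfsg.Lie Cfsg.Lie.ChevalleyDatum
open Cfsg.Agent.ChevalleyStructure Cfsg.Agent.ChevalleyStructure.Elts Cfsg.Agent.ChevalleyStructure.CoxeterGeom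
  Cfsg.Agent.ChevalleyStructure.CoxeterGeomTypes
open Cfsg.Agent.Tits.Roots Cfsg.Agent.Nodes Cfsg.Agent.Nodes.Reps Cfsg.Agent.Nodes.BNOf
  Cfsg.Agent.Nodes.RGDChev Cfsg.Agent.Nodes.Coroot Cfsg.Agent.Nodes.SubComb Cfsg.Agent.DS.Ex Cfsg.Agent.H469.Exc
  Cfsg.Agent.KFacts.RgdField Cfsg.Agent.KFacts.RgdChevCoord
open Cfsg.Agent.SB.Exc.Max Cfsg.Agent.SB.Exc.Frm

namespace MxP

section Comb

variable {I W : Type} [Fintype I] [DecidableEq I] [Group W] [Finite W] {M : CoxeterMatrix I}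
  {cs : CoxeterSystem M W} {A : I → I → ℤ} {h : IsCartan M A} {P : Set (I → ℤ)} (H : Shp cs h P)
  (hP : ∀ a ∈ P, IsRoot cs h a) (hn : ∀ a ∈ P, -a ∈ P)

theorem add_ne_zero' {a b : I → ℤ} (hr : IsRoot cs h a) (ha : 0 ≤ a) (hb : 0 ≤ b) : a + b ≠ 0 := fun e =>
  hr.ne_zero ((add_eq_zero_iff_of_nonneg ha hb).1 e).1

include H hP in
theorem nb_left {b c : I → ℤ} (hb : b ∈ P) (hc : c ∈ P) (hθ : b + c ∈ P) : b ∈ Nb cs h P (b + c) := by
  have h1 := cpr_self cs h (hP _ hθ)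
  have h2 : c ≠ b + c := fun e => (hP b hb).ne_zero (right_eq_add.1 e)
  rw [cpr_add'] at h1
  refine ⟨hb, fun e => (hP c hc).ne_zero (left_eq_add.1 e), ?_⟩
  by_contra h3
  have := H.one _ hθ c ⟨hc, h2, by omega⟩
  omega

include H hP in
theorem nb_sum {b c : I → ℤ} (hb : b ∈ P) (hc : c ∈ P) (hθ : b + c ∈ P) : b + c ∈ Nb cs h P b :=
  ⟨hθ, (nb_left H hP hb hc hθ).2.1.symm, (cpr_pos_comm (hP b hb) (hP _ hθ)).1 (nb_left H hP hb hc hθ).2.2⟩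

include H hP hn in
/-- the neighbours of a summand -/
theorem nb_cases {b c x : I → ℤ} (hb : b ∈ P) (hc : c ∈ P) (hθ : b + c ∈ P) (hx : x ∈ Nb cs h P b) :
    x = b + c ∨ x = -c := by
  have h1 := H.one b hb _ (nb_sum H hP hb hc hθ)
  rw [cpr_add', cpr_self cs h (hP b hb)] at h1
  rcases H.two b hb x hx _ (nb_sum H hP hb hc hθ) (-c) ⟨hn c hc, fun e => (hP _ hθ).ne_zero (by rw [← e, neg_add_cancel]),
    by rw [cpr_neg']; omega⟩ with e | e | e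
  · exact Or.inl e
  · exact Or.inr e
  · exact absurd (show b = (2 : ℤ) • (-c) by rw [two_smul, eq_add_neg_iff_add_eq, e]) (ne_two_smul (hP b hb) _)

include H hP hn in
theorem count (hf : P.Finite) {B : Set (I → ℤ)}
    (hB : ∀ a, a ∈ B ↔ a ∈ RGD.Pos cs h ∩ P ∧ ∀ b ∈ RGD.Pos cs h ∩ P, ∀ c ∈ RGD.Pos cs h ∩ P, a ≠ b + c) :
    2 * ((RGD.Pos cs h ∩ P) \ B).ncard ≤ B.ncard := by
  have hs : ∀ {b c}, b ∈ RGD.Pos cs h ∩ P → c ∈ RGD.Pos cs h ∩ P → b + c ∈ P → b ∈ B := by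
    intro b c hb hc hθ
    refine (hB b).2 ⟨hb, fun b₁ h₁ b₂ h₂ e => ?_⟩
    rcases nb_cases H hP hn hb.2 hc.2 hθ (e ▸ nb_left H hP h₁.2 h₂.2 (e ▸ hb.2)) with e' | e'
    · refine add_ne_zero' h₂.1.1 h₂.1.2 hc.1.2 ?_
      rw [e, add_assoc] at e'
      exact left_eq_add.1 e'
    · exact add_ne_zero' h₁.1.1 h₁.1.2 hc.1.2 (by rw [e', neg_add_cancel])
  have hd : ∀ θ : ↥((RGD.Pos cs h ∩ P) \ B), ∃ b ∈ RGD.Pos cs h ∩ P, ∃ c ∈ RGD.Pos cs h ∩ P, θ.1 = b + c := by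
    intro θ
    by_contra h1
    exact θ.2.2 ((hB _).2 ⟨θ.2.1, fun b hb c hc e => h1 ⟨b, hb, c, hc, e⟩⟩)
  choose b hb c hc e using hd
  have hu : ∀ {θ θ' : ↥((RGD.Pos cs h ∩ P) \ B)} {x y y'}, x ∈ RGD.Pos cs h ∩ P → y ∈ RGD.Pos cs h ∩ P →
      y' ∈ RGD.Pos cs h ∩ P → θ.1 = x + y → θ'.1 = x + y' → θ = θ' := by
    intro θ θ' x y y' hx hy hy' e1 e2
    rcases nb_cases H hP hn hx.2 hy.2 (e1 ▸ θ.2.1.2) (nb_sum H hP hx.2 hy'.2 (e2 ▸ θ'.2.1.2)) with e' | e'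
    · exact Subtype.ext (by rw [e1, e2, e'])
    · exact absurd (by rw [e2, e', neg_add_cancel]) (add_ne_zero' θ'.2.1.1.1 θ'.2.1.1.2 hy.1.2)
  have hne : ∀ θ, b θ ≠ c θ := fun θ e' => ne_two_smul θ.2.1.1.1 (b θ) (by rw [two_smul, e θ, ← e'])
  have : Finite B := (hf.subset fun a ha => ((hB a).1 ha).1.2).to_subtype
  have key := Nat.card_le_card_of_injective (α := ↥((RGD.Pos cs h ∩ P) \ B) ⊕ ↥((RGD.Pos cs h ∩ P) \ B)) (β := B)
    (Sum.elim (fun θ => ⟨b θ, hs (hb θ) (hc θ) (e θ ▸ θ.2.1.2)⟩)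
      fun θ => ⟨c θ, hs (hc θ) (hb θ) (add_comm (b θ) (c θ) ▸ e θ ▸ θ.2.1.2)⟩) (by
    rintro (θ | θ) (θ' | θ') h1 <;> have h2 := congrArg Subtype.val h1 <;> simp only [Sum.elim_inl, Sum.elim_inr] at h2
    · rw [hu (hb θ) (hc θ) (hc θ') (e θ) (h2 ▸ e θ')]
    · obtain rfl := hu (hb θ) (hc θ) (hb θ') (e θ) (by rw [h2, e θ', add_comm])
      exact absurd h2 (hne θ)
    · obtain rfl := hu (hc θ) (hb θ) (hc θ') (by rw [e θ, add_comm]) (h2 ▸ e θ')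
      exact absurd h2.symm (hne θ)
    · rw [hu (θ := θ) (θ' := θ') (hc θ) (hb θ) (hb θ') (by rw [e θ, add_comm]) (by rw [h2, e θ', add_comm])])
  have : Finite ↥((RGD.Pos cs h ∩ P) \ B) := (hf.subset fun a ha => ha.1.2).to_subtype
  rw [Nat.card_sum, Nat.card_coe_set_eq, Nat.card_coe_set_eq] at key
  omega

theorem fx_sl (h4 : ∀ i j, M i j ≠ 4) (h6 : ∀ i j, M i j ≠ 6) : FX cs h := by
  have key : ∀ a b, IsRoot cs h a → IsRoot cs h b → a ≠ b → cpr cs h a b ≤ 1 := by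
    intro a b ha hb hne
    by_cases h2 : a = -b
    · rw [h2, cpr_neg', cpr_self cs h hb]
      omega
    have h3 := DL.Base.cpr_mul_lt ha hb hne h2
    rw [SimplyLaced.cpr_symm cs h h4 h6 hb ha] at h3
    nlinarith
  refine ⟨fun a b ha hb => ?_, fun a b c ha hb _ hne h2 => ?_, fun a b ha hb hne h2 => ?_⟩
  · by_cases e : a = b
    · rw [e, cpr_self cs h hb]
    · have := key a b ha hb e
      omega
  · have := key a b ha hb hne
    omega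
  · have := key a b ha hb hne
    omega

end Comb

section F4

open Four

theorem le_tab : ∀ a ∈ RL, ∀ b ∈ RL, cp a b ≤ 2 := by decide +kernel

set_option synthInstance.maxSize 1000 in
theorem ext_tab : ∀ a ∈ RL, ∀ b ∈ RL, cp a b = 2 → a ≠ b → ∀ c ∈ RL, cp c a = 0 → cp c b = 0 →
    ∃ r ∈ RL, (r = b + c ∨ r + r = a + c) ∧ (cp r a ≠ 0 ∨ cp r b ≠ 0) ∧ cp r c ≠ 0 := by decide +kernel

set_option synthInstance.maxSize 1000 in
theorem perp_tab : ∀ a ∈ RL, ∀ b ∈ RL, cp a b = 2 → a ≠ b → ∃ a' ∈ RL, (cp a' a = 0 ∧ cp a' b = 0) ∧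
    ∃ b' ∈ RL, cp a' b' = 2 ∧ a' ≠ b' ∧ cp b' a = 0 ∧ cp b' b = 0 := by decide +kernel

theorem fx_F4 {W : Type*} [Group W] [Finite W] (hp : IsType chevF4 4 CoxeterMatrix.F₄)
    (cs : CoxeterSystem CoxeterMatrix.F₄ W) : FX cs hp.isCartan where
  le_two a b ha hb := by
    obtain ⟨a, ha', rfl⟩ := exists_tv hp cs ha
    obtain ⟨b, hb', rfl⟩ := exists_tv hp cs hb
    rw [cpr_tv hp cs a hb']
    exact le_tab a ha' b hb'
  ext a b c ha hb hc hne h1 h2 h3 := by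
    obtain ⟨a, ha', rfl⟩ := exists_tv hp cs ha
    obtain ⟨b, hb', rfl⟩ := exists_tv hp cs hb
    obtain ⟨c, hc', rfl⟩ := exists_tv hp cs hc
    rw [cpr_tv hp cs _ hb'] at h1 h3
    rw [cpr_tv hp cs _ ha'] at h2
    obtain ⟨r, hr, e, h4, h5⟩ := ext_tab a ha' b hb' h1 (fun e => hne (e ▸ rfl)) c hc' h2 h3
    refine ⟨tv r, (root_iff hp cs r).2 hr, by rwa [cpr_tv hp cs _ ha', cpr_tv hp cs _ hb'], by rwa [cpr_tv hp cs _ hc'], ?_⟩
    rcases e with e | e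
    · exact ⟨0, 2, 2, by rw [e, tv_add, smul_add, zero_smul, zero_add]⟩
    · exact ⟨1, 0, 1, by rw [two_smul, ← tv_add, e, tv_add, one_smul, zero_smul, one_smul, add_zero]⟩
  perp a b ha hb hne h1 := by
    obtain ⟨a, ha', rfl⟩ := exists_tv hp cs ha
    obtain ⟨b, hb', rfl⟩ := exists_tv hp cs hb
    rw [cpr_tv hp cs _ hb'] at h1
    obtain ⟨a', h2, ⟨h3, h4⟩, b', h5, h6, h7, h8, h9⟩ := perp_tab a ha' b hb' h1 fun e => hne (e ▸ rfl)
    exact ⟨tv a', tv b', (root_iff hp cs _).2 h2, (root_iff hp cs _).2 h5, fun e => h7 (tv_inj e),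
      by rwa [cpr_tv hp cs _ h5], by rwa [cpr_tv hp cs _ ha'], by rwa [cpr_tv hp cs _ hb'], by rwa [cpr_tv hp cs _ ha'],
      by rwa [cpr_tv hp cs _ hb']⟩

end F4

end MxP

attribute [local instance] DL.Base.fintypeSmp DL.Base.decSmp in
/-- **[POS]** -/
theorem boxPos : BoxPos := by
  intro p _ k _ _ _ Y _ N _ _ ρ σ G D Z _ _ H
  have := D.fW
  have hf : (D.Sz Z).Finite := D.finite_roots.subset D.Sz_root
  have h1 : (Bs D Z).ncard ≤ Fintype.card D.I := by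
    have h2 := LinearMap.finrank_le_finrank_of_injective (D.io_injective Z)
    rw [Module.finrank_fintype_fun_eq_card, Module.finrank_fintype_fun_eq_card] at h2
    refine le_trans ?_ h2
    rw [Bs, ← Set.image_univ, ← Nat.card_eq_fintype_card, ← Set.ncard_univ]
    exact Set.ncard_image_le
  have h2 := MxP.count H D.Sz_root (fun _ => D.Sz_neg) hf (B := Bs D Z) fun _ => mem_Bs
  have h3 := Set.ncard_sdiff_add_ncard_of_subset (s := Bs D Z) (t := RGD.Pos D.cs D.h ∩ D.Sz Z) (fun _ => bs_mem_Ps)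
    (hf.subset Set.inter_subset_right)
  refine ⟨by omega, fun hI => le_trans (Set.ncard_le_ncard (fun a ha => mem_Bs.2 ⟨ha, fun b hb c hc e => ?_⟩)
    (hf.subset fun a ha => (bs_mem_Ps ha).2)) h1⟩
  have h4 := MxP.nb_left H D.Sz_root hb.2 hc.2 (e ▸ ha.2)
  rw [hI _ (e ▸ ha.2)] at h4
  exact h4

/-- **[FX]** -/
theorem boxFX : BoxFX := by
  intro D l M hp hD
  have := finite_W hp M.toCoxeterSystem
  rcases hD with rfl | rfl | rfl | rfl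
  · obtain ⟨rfl, e⟩ := Sigma.mk.inj_iff.1 (type_of hp hpF4 (Or.inl rfl))
    obtain rfl := eq_of_heq e
    exact MxP.fx_F4 hp _
  · obtain ⟨rfl, e⟩ := Sigma.mk.inj_iff.1 (type_of hp hpE6 (Or.inr (Or.inl rfl)))
    obtain rfl := eq_of_heq e
    exact MxP.fx_sl SB.Exc.W.ne4 SB.Exc.W.ne6
  · obtain ⟨rfl, e⟩ := Sigma.mk.inj_iff.1 (type_of hp hpE7 (Or.inr (Or.inr (Or.inl rfl))))
    obtain rfl := eq_of_heq e
    exact MxP.fx_sl ne4_E7 ne6_E7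
  · obtain ⟨rfl, e⟩ := Sigma.mk.inj_iff.1 (type_of hp hpE8 (Or.inr (Or.inr (Or.inr rfl))))
    obtain rfl := eq_of_heq e
    exact MxP.fx_sl ne4_E8 ne6_E8

end Cfsg.Agent.TH.Ab
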