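import Cfsg.Agent.TH.Sv.Chk
import Cfsg.Agent.TH.Ex.Si.Num
import Cfsg.Agent.H363.Cyc.CycNum

/-!
# S3541, normalisers of maximal tori in `F₄, E₆, ²E₆, E₇, E₈`: the numbers (helper71)

`|H ⊓ T| = a = s w` with `w ∣ |W|` and `z s = ∏ Φ_e(q)`, `∑ φ(e) = l`.  `Cond.left` : only two values of `a` in `E₆(2)` pass.
-/

set_option autoImplicit false
set_option Elab.async false

namespace Cfsg.Agent.TH.Ab.Tor

open Polynomial Cfsg.Agent.H902 Cfsg.Agent.TH.Sv Cfsg.Agent.TH.Ex.Si Cfsg.Agent.H363.Cyc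

/-! ### values of cyclotomic polynomials -/

/-- `Φ_d(q)` -/
noncomputable def cy (q d : ℕ) : ℕ := ((cyclotomic d ℤ).eval (q : ℤ)).natAbs

theorem cy_cast {q : ℕ} (hq : 2 ≤ q) (d : ℕ) : (cy q d : ℤ) = (cyclotomic d ℤ).eval (q : ℤ) :=
  Int.natAbs_of_nonneg (CycNum.eval_pos hq d).le

theorem cy_pos {q : ℕ} (hq : 2 ≤ q) (d : ℕ) : 0 < cy q d := Int.natAbs_pos.2 (CycNum.eval_pos hq d).ne'

theorem cy_le {q : ℕ} (hq : 2 ≤ q) (d : ℕ) : cy q d ≤ (q + 1) ^ d.totient := by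
  have h := CycNum.eval_le hq d
  rw [← cy_cast hq] at h
  exact_mod_cast h

theorem prod_cy_le {q : ℕ} (hq : 2 ≤ q) (m : Multiset ℕ) : (m.map (cy q)).prod ≤ (q + 1) ^ (m.map Nat.totient).sum := by
  induction m using Multiset.induction_on with
  | empty => simp
  | cons d m ih =>
    rw [Multiset.map_cons, Multiset.map_cons, Multiset.prod_cons, Multiset.sum_cons, pow_add]
    exact Nat.mul_le_mul (cy_le hq d) ih

/-- the same, by division -/
def cv (q fuel : ℕ) : ℕ → ℕ :=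
  Nat.rec (motive := fun _ => ℕ → ℕ) (fun _ => 0)
    (fun _ ih d => (q ^ d - 1) / prodL (List.range d) fun i => bif Nat.beq (d % i) 0 then frc i ih else 1) fuel

theorem cv_eq {q : ℕ} (hq : 2 ≤ q) (fuel : ℕ) : ∀ d, 0 < d → d ≤ fuel → cv q fuel d = cy q d := by
  induction fuel with
  | zero => intro d h1 h2; omega
  | succ n ih =>
    intro d h1 h2
    have h3 : ((List.range d).map fun i => bif Nat.beq (d % i) 0 then frc i (cv q n) else 1).prod =
        ∏ i ∈ d.properDivisors, cy q i := by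
      have h4 : d.properDivisors = (Finset.range d).filter fun i => d % i = 0 := by
        ext i
        rw [Nat.mem_properDivisors, Finset.mem_filter, Finset.mem_range, Nat.dvd_iff_mod_eq_zero, and_comm]
      rw [h4, Finset.prod_filter, ← List.prod_toFinset _ List.nodup_range, List.toFinset_range]
      refine Finset.prod_congr rfl fun i hi => ?_
      by_cases h5 : d % i = 0
      · have h6 : i ≠ 0 := by
          rintro rfl
          rw [Nat.mod_zero] at h5
          omega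
        rw [if_pos h5, h5, frc_eq, ih i (Nat.pos_of_ne_zero h6) (by have := Finset.mem_range.1 hi; omega)]
        rfl
      · rw [if_neg h5, show Nat.beq (d % i) 0 = false from Bool.eq_false_iff.2 fun e => h5 (Nat.eq_of_beq_eq_true e)]
        rfl
    have h4 : cy q d * ∏ i ∈ d.properDivisors, cy q i = q ^ d - 1 := by
      have h5 := CycNum.eval_mul h1 (q : ℤ)
      have h6 : 1 ≤ q ^ d := Nat.one_le_pow _ _ (by omega)
      simp only [← cy_cast hq] at h5
      exact_mod_cast h5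
    show (q ^ d - 1) / prodL (List.range d) (fun i => bif Nat.beq (d % i) 0 then frc i (cv q n) else 1) = _
    rw [prodL_eq, h3, ← h4, Nat.mul_div_cancel _ (Finset.prod_pos fun i _ => cy_pos hq i)]

/-- the pairs `(e, φ(e))` with `φ(e) ≤ 8` -/
def tb : List (ℕ × ℕ) := [(15, 8), (16, 8), (20, 8), (24, 8), (30, 8), (7, 6), (9, 6), (14, 6), (18, 6), (5, 4), (8, 4),
  (10, 4), (12, 4), (3, 2), (4, 2), (6, 2), (1, 1), (2, 1)]

theorem mem_tb {d : ℕ} (h0 : 0 < d) (h : d.totient ≤ 8) : (d, d.totient) ∈ tb ∧ d ≤ 30 := by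
  have h1 := H365.Zsig.le_two_mul_totient_sq h0
  have h2 : d.totient ^ 2 ≤ 8 ^ 2 := Nat.pow_le_pow_left h 2
  have key : ∀ d < 129, d = 0 ∨ 8 < d.totient ∨ ((d, d.totient) ∈ tb ∧ d ≤ 30) := by decide +kernel
  exact ((key d (by omega)).resolve_left h0.ne').resolve_left h.not_gt

/-! ### the enumeration of the products -/

/-- the loop over the multiplicity of the pair `(u, v)` -/
def lp (u v : ℕ) (k : ℕ → ℕ → Bool) (fuel : ℕ) : ℕ → ℕ → Bool :=
  Nat.rec (motive := fun _ => ℕ → ℕ → Bool) (fun _ _ => false)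
    (fun _ ih l acc => k l acc && (Nat.blt l u || frc (l - u) fun l' => frc (acc * v) (ih l'))) fuel

/-- `k (acc * ∏ x.2)` for all multisets of members of `L` with `∑ x.1 = l` -/
def allM (k : ℕ → Bool) (L : List (ℕ × ℕ)) : ℕ → ℕ → Bool :=
  List.rec (motive := fun _ => ℕ → ℕ → Bool) (fun l acc => !Nat.beq l 0 || k acc) (fun x _ ih => lp x.1 x.2 ih 10) L

theorem allM_sound (k : ℕ → Bool) (L : List (ℕ × ℕ)) : ∀ (l acc : ℕ) (m : Multiset (ℕ × ℕ)), allM k L l acc = true →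
    (∀ x ∈ m, x ∈ L) → (m.map Prod.fst).sum = l → k (acc * (m.map Prod.snd).prod) = true := by
  induction L with
  | nil =>
    intro l acc m h h1 h2
    obtain rfl : m = 0 := Multiset.eq_zero_of_forall_notMem fun x hx => List.not_mem_nil (h1 x hx)
    subst h2
    rw [Multiset.map_zero, Multiset.prod_zero, mul_one]
    exact h
  | cons x L ih =>
    have key : ∀ fuel l acc (m : Multiset (ℕ × ℕ)), lp x.1 x.2 (allM k L) fuel l acc = true → (∀ y ∈ m, y ∈ x :: L) →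
        (m.map Prod.fst).sum = l → k (acc * (m.map Prod.snd).prod) = true := fun fuel => by
      induction fuel with
      | zero => exact fun _ _ _ h => absurd h Bool.false_ne_true
      | succ n ihn =>
        intro l acc m h h1 h2
        have h3 : (allM k L l acc && (Nat.blt l x.1 ||
          frc (l - x.1) fun l' => frc (acc * x.2) (lp x.1 x.2 (allM k L) n l'))) = true := h
        rw [Bool.and_eq_true, Bool.or_eq_true, frc_eq, frc_eq, Nat.blt_eq] at h3
        by_cases h4 : x ∈ m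
        · obtain ⟨m, rfl⟩ := Multiset.exists_cons_of_mem h4
          rw [Multiset.map_cons, Multiset.sum_cons] at h2
          rw [Multiset.map_cons, Multiset.prod_cons, ← mul_assoc]
          exact ihn _ _ m (h3.2.resolve_left (by omega)) (fun y hy => h1 y (Multiset.mem_cons_of_mem hy)) (by omega)
        · exact ih l acc m h3.1 (fun y hy => (List.mem_cons.1 (h1 y hy)).resolve_left fun e => h4 (e ▸ hy)) h2
    exact key 10

/-- evaluate the table first -/
def frcT (f : ℕ → ℕ) (L : List (ℕ × ℕ)) : (List (ℕ × ℕ) → Bool) → Bool :=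
  List.rec (motive := fun _ => (List (ℕ × ℕ) → Bool) → Bool) (fun k => k [])
    (fun x _ ih k => frc x.2 fun u => frc (f x.1) fun v => ih fun L => k ((u, v) :: L)) L

theorem frcT_eq (f : ℕ → ℕ) (L : List (ℕ × ℕ)) (k : List (ℕ × ℕ) → Bool) :
    frcT f L k = k (L.map fun x => (x.2, f x.1)) := by
  induction L generalizing k with
  | nil => rfl
  | cons x L ih =>
    show (frc x.2 fun u => frc (f x.1) fun v => frcT f L fun L => k ((u, v) :: L)) = _
    rw [frc_eq, frc_eq, ih]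
    rfl

/-! ### the test -/

/-- the order of the Weyl group -/
def wY : Art.Sh → ℕ
  | .F4 => 1152
  | .E7 => 2903040
  | .E8 => 696729600
  | _ => 51840

/-- the rank -/
def lY : Art.Sh → ℕ
  | .F4 => 4
  | .E7 => 7
  | .E8 => 8
  | _ => 6

/-- the order of the fundamental group -/
def zY : Art.Sh → ℕ
  | .F4 => 1
  | .E7 => 2
  | .E8 => 1
  | _ => 3

/-- `q ^ cY` is a lower bound for the classes -/
def cY : Art.Sh → ℕ
  | .F4 => 15
  | .TE6 => 21
  | .E7 => 27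
  | .E8 => 57
  | _ => 16

/-- the bound for `q` -/
def QY : Art.Sh → ℕ
  | .F4 => 11
  | .TE6 => 15
  | .E7 => 12
  | .E8 => 4
  | _ => 325

/-- the values which are left -/
def ex (Y : Art.Sh) (q a : ℕ) : Bool := Y == .E6 && (Nat.beq q 2 && (Nat.beq a 23328 || Nat.beq a 303264))

/-- the test for `a = s w` (`t - a` is the degree) -/
def chkA (N p c b s : ℕ) (e : ℕ → Bool) (w : ℕ) : Bool :=
  frc (Nat.mul s w) fun a => Nat.ble (Nat.mul 4 (Nat.mul a a)) c || (!Nat.beq (Nat.mod N a) 0 ||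
    frc (Nat.add (Nat.div N a) a) fun t => !Nat.beq (Nat.mod (Nat.sub t a) p) 0 ||
      (!Nat.beq (Nat.mod (Nat.pow (Nat.gcd s (t - a - 1)) (Nat.log2 s)) s) 0 || frc (Nat.gcd a (t - a - 1)) fun G =>
      Nat.blt ((a - 1) ^ 2) ((a / G - 1) * c) || ((Nat.beq (a % p) 0 && Nat.blt (cop p a * G) c) ||
        ((Nat.blt (b * G * a) N &&
          !allL [2, 3, 5, 7] fun r => Nat.beq r p || (!Nat.beq (a % r) 0 || Nat.beq ((t - a - 1) % r) 0)) || e a))))

/-- the test for `s` -/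
def chkS (N p c b W : ℕ) (e : ℕ → Bool) (s : ℕ) : Bool :=
  !Nat.beq (Nat.mod N s) 0 || (Nat.ble (Nat.mul 4 (Nat.pow (Nat.mul s W) 2)) c ||
    (!Nat.beq (Nat.mod W (Nat.gcd (Nat.div N s) (Nat.pow s (Nat.log2 s)))) 0 ||
    allDiv [2, 3, 5, 7] W (chkA N p c b s e) 1))

/-- the test for one field -/
def chkQ (Y : Art.Sh) (p q : ℕ) : Bool :=
  frc (q ^ Art.NN Y * Art.num Y q / Art.dd Y q) fun N => frc (q ^ cY Y) fun c => frc (bY Y q) fun b => frc (wY Y) fun W =>
    frc (zY Y) fun Z => frcT (cv q 30) (tb.filter fun x => Nat.ble x.2 (lY Y)) fun L =>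
      allM (fun S => allL [1, 2, 3] fun z => Nat.blt Z z || (!Nat.beq (S % z) 0 || frc (S / z) (chkS N p c b W (ex Y q))))
        L (lY Y) 1

/-- the test for one family -/
def chkY (Y : Art.Sh) : Bool :=
  allL (List.range (QY Y)) fun p => frc p fun p => Nat.blt p 2 ||
    (!allL [2, 3, 5, 7, 11, 13, 17] (fun r => Nat.ble p r || !Nat.beq (p % r) 0) ||
      allL [1, 2, 3, 4, 5, 6, 7, 8] fun f => frc (p ^ f) fun q => Nat.ble (QY Y) q || chkQ Y p q)

theorem chk_F4 : chkY .F4 = true := by decide +kernel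
theorem chk_E6 : chkY .E6 = true := by decide +kernel
theorem chk_TE6 : chkY .TE6 = true := by decide +kernel
theorem chk_E7 : chkY .E7 = true := by decide +kernel
theorem chk_E8 : chkY .E8 = true := by decide +kernel

theorem chk_all {Y : Art.Sh} (hY : Y ∈ Zs) : chkY Y = true := by
  simp only [Zs, List.mem_cons, List.not_mem_nil, or_false] at hY
  rcases hY with rfl | rfl | rfl | rfl | rfl
  exacts [chk_F4, chk_E6, chk_TE6, chk_E7, chk_E8]

/-! ### soundness -/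

theorem div_eq (x y : ℕ) : Nat.div x y = x / y := rfl

theorem mod_eq (x y : ℕ) : Nat.mod x y = x % y := rfl

theorem blt_false {x y : ℕ} (h : y ≤ x) : Nat.blt x y = false := Bool.eq_false_iff.2 fun e => by
  rw [Nat.blt_eq] at e
  omega

theorem ble_false {x y : ℕ} (h : y < x) : Nat.ble x y = false := Bool.eq_false_iff.2 fun e =>
  absurd (Nat.le_of_ble_eq_true e) h.not_ge

theorem dvd_pow_log {x y : ℕ} (hx : x ≠ 0) (hy : y ≠ 0) (h : ∀ r, r.Prime → r ∣ x → r ∣ y) : x ∣ y ^ Nat.log2 x := by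
  refine (Nat.factorization_prime_le_iff_dvd hx (pow_ne_zero _ hy)).1 fun r hr => ?_
  rw [Nat.factorization_pow, Finsupp.smul_apply, smul_eq_mul]
  by_cases h1 : r ∣ x
  · have h2 : 2 ^ x.factorization r ≤ x :=
      (Nat.pow_le_pow_left hr.two_le _).trans (Nat.le_of_dvd (Nat.pos_of_ne_zero hx) (Nat.ordProj_dvd x r))
    exact ((Nat.le_log2 hx).2 h2).trans (Nat.le_mul_of_pos_right _ (hr.factorization_pos_of_dvd hy (h r hr h1)))
  · rw [Nat.factorization_eq_zero_of_not_dvd h1]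
    exact Nat.zero_le _

theorem lt_of_small {q Q W l c : ℕ} (h0 : 0 < Q) (h1 : 4 * (W * (Q + 1) ^ l) ^ 2 ≤ Q ^ c) (hc : 2 * l ≤ c)
    (h2 : q ^ c < 4 * (W * (q + 1) ^ l) ^ 2) : q < Q := by
  by_contra h
  obtain ⟨k, rfl⟩ := Nat.exists_eq_add_of_le hc
  have h3 : (Q * (q + 1)) ^ (2 * l) ≤ ((Q + 1) * q) ^ (2 * l) := Nat.pow_le_pow_left (by nlinarith) _
  have h4 : Q ^ k ≤ q ^ k := Nat.pow_le_pow_left (by omega) k
  refine absurd h2 (not_lt.2 (Nat.le_of_mul_le_mul_left (c := Q ^ (2 * l)) ?_ (by positivity)))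
  calc _ = 4 * W ^ 2 * (Q * (q + 1)) ^ (2 * l) := by rw [mul_pow Q]; ring
    _ ≤ 4 * W ^ 2 * ((Q + 1) * q) ^ (2 * l) := Nat.mul_le_mul_left _ h3
    _ = 4 * (W * (Q + 1) ^ l) ^ 2 * q ^ (2 * l) := by rw [mul_pow (Q + 1)]; ring
    _ ≤ Q ^ (2 * l + k) * q ^ (2 * l) := Nat.mul_le_mul_right _ h1
    _ = Q ^ (2 * l) * (q ^ (2 * l) * Q ^ k) := by ring
    _ ≤ Q ^ (2 * l) * (q ^ (2 * l) * q ^ k) := Nat.mul_le_mul_left _ (Nat.mul_le_mul_left _ h4)
    _ = _ := by ring

theorem tab {Y : Art.Sh} (hY : Y ∈ Zs) : 0 < QY Y ∧ QY Y ≤ 325 ∧ 4 * (wY Y * (QY Y + 1) ^ lY Y) ^ 2 ≤ QY Y ^ cY Y ∧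
    2 * lY Y ≤ cY Y ∧ lY Y ≤ 8 ∧ zY Y ≤ 3 ∧ wY Y ∣ 696729600 := by
  revert Y
  decide +kernel

theorem mem_ps {r x : ℕ} (hr : r.Prime) (h : r ∣ x) (hx : x ∣ 696729600) : r ∈ [2, 3, 5, 7] := by
  have h1 : r ∣ 2 ^ 14 * (3 ^ 5 * (5 ^ 2 * 7)) := h.trans hx
  simp only [hr.dvd_mul, List.mem_cons, List.not_mem_nil, or_false] at h1 ⊢
  rcases h1 with h1 | h1 | h1 | h1
  · exact Or.inl ((Nat.prime_dvd_prime_iff_eq hr Nat.prime_two).1 (hr.dvd_of_dvd_pow h1))
  · exact Or.inr (Or.inl ((Nat.prime_dvd_prime_iff_eq hr Nat.prime_three).1 (hr.dvd_of_dvd_pow h1)))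
  · exact Or.inr (Or.inr (Or.inl ((Nat.prime_dvd_prime_iff_eq hr Nat.prime_five).1 (hr.dvd_of_dvd_pow h1))))
  · exact Or.inr (Or.inr (Or.inr ((Nat.prime_dvd_prime_iff_eq hr Nat.prime_seven).1 h1)))

/-- the necessary conditions -/
structure Cond (Y : Art.Sh) (p f N s w z d : ℕ) (m : Multiset ℕ) : Prop where
  real : Art.Real Y p f N
  w_dvd : w ∣ wY Y
  z_le : z ≤ zY Y
  tor : z * s = (m.map (cy (p ^ f))).prod
  pos : ∀ e ∈ m, 0 < e
  sum : (m.map Nat.totient).sum = lY Y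
  a_dvd : s * w ∣ N
  p_dvd : p ∣ N / (s * w)
  d_dvd : d ∣ N / (s * w) - 1
  two_le : 2 ≤ N / (s * w)
  rad : ∀ r, r.Prime → r ∣ s → r ∣ d
  small : (p ^ f) ^ cY Y < 4 * (s * w) ^ 2
  sig : (s * w / Nat.gcd (s * w) d - 1) * (p ^ f) ^ cY Y ≤ (s * w - 1) ^ 2
  un : p ∣ s * w → (p ^ f) ^ cY Y ≤ s * w / p ^ (s * w).factorization p * Nat.gcd (s * w) d
  ss : ∀ r, r.Prime → r ∣ s * w → ¬ r ∣ d → r ≠ p → N ≤ bY Y (p ^ f) * Nat.gcd (s * w) d * (s * w)

namespace Cond

variable {Y : Art.Sh} {p f N s w z d : ℕ} {m : Multiset ℕ} (c : Cond Y p f N s w z d m)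
include c

theorem two_le_q : 2 ≤ p ^ f := c.real.hp.two_le.trans (Nat.le_self_pow (by have := c.real.hf; omega) p)

theorem a_pos : 0 < s * w := Nat.pos_of_ne_zero fun h => by
  have h1 := c.small
  rw [h] at h1
  exact absurd h1 (by simp)

theorem zs_pos : 0 < z * s := by
  rw [c.tor]
  refine Multiset.prod_pos fun x hx => ?_
  obtain ⟨e, -, rfl⟩ := Multiset.mem_map.1 hx
  exact cy_pos c.two_le_q e

theorem of_chkA {e : ℕ → Bool} (h : chkA N p ((p ^ f) ^ cY Y) (bY Y (p ^ f)) s e w = true) : e (s * w) = true := by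
  have ha := c.a_pos
  have hs : s ≠ 0 := left_ne_zero_of_mul ha.ne'
  have h2 := c.two_le
  have hG : Nat.gcd (s * w) d ≤ Nat.gcd (s * w) (N / (s * w) - 1) :=
    Nat.le_of_dvd (Nat.gcd_pos_of_pos_left _ ha) (Nat.gcd_dvd_gcd_of_dvd_right _ c.d_dvd)
  have e1 : Nat.ble (4 * (s * w * (s * w))) ((p ^ f) ^ cY Y) = false :=
    ble_false (by rw [← sq]; exact c.small)
  have e2 : Nat.gcd s (N / (s * w) - 1) ^ Nat.log2 s % s = 0 := Nat.mod_eq_zero_of_dvd
    (dvd_pow_log hs (Nat.gcd_ne_zero_left hs) fun r hr h => Nat.dvd_gcd h ((c.rad r hr h).trans c.d_dvd))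
  have e3 : Nat.blt ((s * w - 1) ^ 2) ((s * w / Nat.gcd (s * w) (N / (s * w) - 1) - 1) * (p ^ f) ^ cY Y) = false :=
    blt_false ((Nat.mul_le_mul_right _ (Nat.sub_le_sub_right
      (Nat.div_le_div_left hG (Nat.gcd_pos_of_pos_left _ ha)) 1)).trans c.sig)
  have e4 : (Nat.beq (s * w % p) 0 && Nat.blt (cop p (s * w) * Nat.gcd (s * w) (N / (s * w) - 1)) ((p ^ f) ^ cY Y)) =
      false := Bool.eq_false_iff.2 fun h => by
    rw [Bool.and_eq_true, Nat.beq_eq, Nat.blt_eq, cop_eq c.real.hp ha.ne'] at h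
    exact absurd h.2 (not_lt.2 ((c.un (Nat.dvd_of_mod_eq_zero h.1)).trans (Nat.mul_le_mul_left _ hG)))
  have e5 : (Nat.blt (bY Y (p ^ f) * Nat.gcd (s * w) (N / (s * w) - 1) * (s * w)) N &&
      !allL [2, 3, 5, 7] fun r => Nat.beq r p || (!Nat.beq (s * w % r) 0 || Nat.beq ((N / (s * w) - 1) % r) 0)) = false :=
    Bool.eq_false_iff.2 fun h => by
      rw [Bool.and_eq_true, Nat.blt_eq, Bool.not_eq_true', ← Bool.not_eq_true, allL_iff] at h
      refine h.2 fun r hr => ?_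
      have h3 : r.Prime := by
        simp only [List.mem_cons, List.not_mem_nil, or_false] at hr
        rcases hr with rfl | rfl | rfl | rfl <;> norm_num
      by_contra h4
      simp only [Bool.or_eq_true, Nat.beq_eq, Bool.not_eq_true', not_or, Bool.not_eq_false] at h4
      exact absurd h.1 (not_lt.2 ((c.ss r h3 (Nat.dvd_of_mod_eq_zero h4.2.1)
        (fun h5 => h4.2.2 (Nat.mod_eq_zero_of_dvd (h5.trans c.d_dvd))) h4.1).trans
          (Nat.mul_le_mul_right _ (Nat.mul_le_mul_left _ hG))))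
  simp only [chkA, frc_eq, Nat.mul_eq, Nat.add_eq, Nat.sub_eq, Nat.pow_eq, div_eq, mod_eq,
    Nat.add_sub_cancel, e1, e2, e3, e4, e5, Nat.mod_eq_zero_of_dvd c.a_dvd, Nat.mod_eq_zero_of_dvd c.p_dvd, Nat.beq_refl,
    Bool.not_true, Bool.false_or] at h
  exact h

theorem of_chkS (hY : Y ∈ Zs) {e : ℕ → Bool} (h : chkS N p ((p ^ f) ^ cY Y) (bY Y (p ^ f)) (wY Y) e s = true) :
    e (s * w) = true := by
  have ha := c.a_pos
  have hs : 0 < s := Nat.pos_of_mul_pos_right ha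
  have hW := (tab hY).2.2.2.2.2.2
  have e1 : Nat.ble (4 * (s * wY Y) ^ 2) ((p ^ f) ^ cY Y) = false :=
    ble_false (c.small.trans_le (Nat.mul_le_mul_left _
      (Nat.pow_le_pow_left (Nat.mul_le_mul_left _ (Nat.le_of_dvd (Nat.pos_of_dvd_of_pos hW (by norm_num)) c.w_dvd)) 2)))
  have e2 : wY Y % Nat.gcd (N / s) (s ^ Nat.log2 s) = 0 := by
    refine Nat.mod_eq_zero_of_dvd (dvd_trans ?_ c.w_dvd)
    have h1 : Nat.Coprime s (N / (s * w)) := Nat.coprime_of_dvd fun r hr h1 h2 => by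
      have h3 := (Nat.dvd_sub_iff_right (by have := c.two_le; omega) h2).1 ((c.rad r hr h1).trans c.d_dvd)
      exact hr.one_lt.ne' (Nat.dvd_one.1 h3)
    have h2 : N / s = w * (N / (s * w)) := by
      conv_lhs => rw [← Nat.mul_div_cancel' c.a_dvd, mul_assoc, Nat.mul_div_cancel_left _ hs]
    exact ((h1.pow_left _).coprime_dvd_left (Nat.gcd_dvd_right _ _)).dvd_of_dvd_mul_right (h2 ▸ Nat.gcd_dvd_left _ _)
  simp only [chkS, Nat.mul_eq, Nat.pow_eq, div_eq, mod_eq, e1, e2,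
    Nat.mod_eq_zero_of_dvd ((Dvd.intro _ rfl).trans c.a_dvd), Nat.beq_refl, Bool.not_true, Bool.false_or] at h
  have h1 := allDiv_sound _ (by decide) _ _ _ h w c.w_dvd (right_ne_zero_of_mul ha.ne')
    fun r hr h1 => mem_ps hr h1 (c.w_dvd.trans hW)
  rw [one_mul] at h1
  exact c.of_chkA h1

theorem of_chkQ (hY : Y ∈ Zs) (h : chkQ Y p (p ^ f) = true) : ex Y (p ^ f) (s * w) = true := by
  have hq := c.two_le_q
  have hz : 0 < z := Nat.pos_of_mul_pos_right c.zs_pos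
  have h1 : (p ^ f) ^ Art.NN Y * Art.num Y (p ^ f) / Art.dd Y (p ^ f) = N := by
    rw [← c.real.eq, Nat.mul_div_cancel_left _ (H252.EN.real_pos c.real)]
  simp only [chkQ, frc_eq, frcT_eq, h1] at h
  have h2 := allM_sound _ _ _ _ (m.map fun e => (e.totient, cy (p ^ f) e)) h (fun x hx => by
    obtain ⟨e, he, rfl⟩ := Multiset.mem_map.1 hx
    have h3 : e.totient ≤ lY Y := c.sum ▸ Multiset.single_le_sum (fun _ _ => Nat.zero_le _) _ (Multiset.mem_map_of_mem _ he)
    obtain ⟨h4, h5⟩ := mem_tb (c.pos e he) (h3.trans (tab hY).2.2.2.2.1)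
    exact List.mem_map.2 ⟨_, List.mem_filter.2 ⟨h4, Nat.ble_eq_true_of_le h3⟩, by rw [cv_eq hq 30 e (c.pos e he) h5]⟩)
    (by rw [Multiset.map_map]; exact c.sum)
  rw [Multiset.map_map, one_mul, allL_iff] at h2
  have h3 := h2 z (by
    have := c.z_le.trans (tab hY).2.2.2.2.2.1
    simp only [List.mem_cons, List.not_mem_nil, or_false]
    omega)
  have h4 : (Multiset.map (Prod.snd ∘ fun e => (e.totient, cy (p ^ f) e)) m).prod = z * s := c.tor.symm
  rw [h4, Nat.mul_mod_right, Nat.mul_div_cancel_left _ hz, blt_false c.z_le] at h3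
  exact c.of_chkS hY h3

/-- **The values which are left.** -/
theorem left (hY : Y ∈ Zs) : Y = .E6 ∧ p ^ f = 2 ∧ (s * w = 23328 ∨ s * w = 303264) := by
  have hq := c.two_le_q
  have hp := c.real.hp
  have hf := c.real.hf
  obtain ⟨t1, t2, t3, t4, -, -, t5⟩ := tab hY
  have h1 : s ≤ (p ^ f + 1) ^ lY Y := (Nat.le_mul_of_pos_left _ (Nat.pos_of_mul_pos_right c.zs_pos)).trans
    (by rw [c.tor, ← c.sum]; exact prod_cy_le hq m)
  have h2 : p ^ f < QY Y := lt_of_small t1 t3 t4 (c.small.trans_le (Nat.mul_le_mul_left _ (Nat.pow_le_pow_left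
    ((Nat.mul_le_mul h1 (Nat.le_of_dvd (Nat.pos_of_dvd_of_pos t5 (by norm_num)) c.w_dvd)).trans_eq (mul_comm _ _)) 2)))
  have h3 : f < 9 := (Nat.pow_lt_pow_iff_right one_lt_two).1 (((Nat.pow_le_pow_left hp.two_le f).trans_lt h2).trans_le
    (t2.trans (by norm_num)))
  have h4 := (allL_iff _ _).1 (chk_all hY) p (List.mem_range.2 ((Nat.le_self_pow (by omega) p).trans_lt h2))
  have e2 : (allL [2, 3, 5, 7, 11, 13, 17] fun r => Nat.ble p r || !Nat.beq (p % r) 0) = true :=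
    (allL_iff _ _).2 fun r hr => by
      by_contra h
      simp only [Bool.or_eq_true, Nat.ble_eq, Bool.not_eq_true', not_or, Bool.not_eq_false, Nat.beq_eq] at h
      simp only [List.mem_cons, List.not_mem_nil, or_false] at hr
      rcases (Nat.dvd_prime hp).1 (Nat.dvd_of_mod_eq_zero h.2) with h5 | h5 <;> omega
  simp only [frc_eq, blt_false hp.two_le, e2, Bool.not_true, Bool.false_or] at h4
  have h5 := (allL_iff _ _).1 h4 f (by simp only [List.mem_cons, List.not_mem_nil, or_false]; omega)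
  rw [ble_false h2, Bool.false_or] at h5
  simpa only [ex, Bool.and_eq_true, Bool.or_eq_true, beq_iff_eq, Nat.beq_eq] using c.of_chkQ hY h5

end Cond

end Cfsg.Agent.TH.Ab.Tor
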